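import Cfsg.Agent.H6.Borel

/-!
# Traces of elements of small order
-/

set_option autoImplicit false

open Matrix MatrixGroups

namespace Cfsg.Agent.H6

variable {F : Type*} [Field F]

lemma pow_lin_step {g : SL(2, F)} {n : ℕ} {a b : F}
    (h : ∀ i j, (g ^ n) i j = a * g i j + b * (1 : SL(2, F)) i j) (i j : Fin 2) :
    (g ^ (n + 1)) i j = (a * tr g + b) * g i j + (-a) * (1 : SL(2, F)) i j := by
  have d := sl2_det g
  rw [pow_succ, sl2_mul, h i 0, h i 1]
  fin_cases i <;> fin_cases j <;> simp [tr] <;> grind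

lemma isScal_or_coeff_eq_zero {g : SL(2, F)} {n : ℕ} {a b : F}
    (h : ∀ i j, (g ^ n) i j = a * g i j + b * (1 : SL(2, F)) i j) (hs : IsScal (g ^ n)) :
    IsScal g ∨ a = 0 := by
  by_cases ha : a = 0
  · exact Or.inr ha
  obtain ⟨h1, h2, h3⟩ := hs
  rw [h] at h1 h2
  rw [h, h] at h3
  simp at h1 h2 h3
  exact Or.inl ⟨h1.resolve_left ha, h2.resolve_left ha, h3.resolve_right ha⟩

/-- The trace relation of an element whose image in `PSL₂` has order `2`, `3` or `5`. -/
lemma tr_sq_of_pow {g : SL(2, F)} (hg : π g ≠ 1) :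
    (π g ^ 2 = 1 → tr g = 0) ∧ (π g ^ 3 = 1 → tr g ^ 2 = 1) ∧
      (π g ^ 5 = 1 → (tr g ^ 2) ^ 2 - 3 * tr g ^ 2 + 1 = 0) := by
  rw [Ne, π_eq_one_iff_isScal] at hg
  have h1 : ∀ i j, (g ^ 1) i j = (1 : F) * g i j + 0 * (1 : SL(2, F)) i j := by simp
  have h2 := pow_lin_step h1
  have h3 := pow_lin_step h2
  have h4 := pow_lin_step h3
  have h5 := pow_lin_step h4
  refine ⟨fun h => ?_, fun h => ?_, fun h => ?_⟩ <;> rw [← map_pow, π_eq_one_iff_isScal] at h
  · simpa using (isScal_or_coeff_eq_zero h2 h).resolve_left hg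
  · have := (isScal_or_coeff_eq_zero h3 h).resolve_left hg
    linear_combination this
  · have := (isScal_or_coeff_eq_zero h5 h).resolve_left hg
    linear_combination this

end Cfsg.Agent.H6
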